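import Cfsg.Agent.Lib.Helper35.Fi23Tr.X.Chk5

namespace Cfsg.Agent.Lib.Helper35.Fi23Tr.X

open Cfsg.Agent.Lib.Helper35

theorem wfix0 : ∀ i, i < 31671 → pwalk Fi23a.pt wl0.W i = i := fun i hi => fix_of_leaves' wls 31671 wu1376 wl0.W (by simp [wls]) i hi
theorem wfix1 : ∀ i, i < 31671 → pwalk Fi23a.pt wl1.W i = i := fun i hi => fix_of_leaves' wls 31671 wu1376 wl1.W (by simp [wls]) i hi
theorem wfix2 : ∀ i, i < 31671 → pwalk Fi23a.pt wl2.W i = i := fun i hi => fix_of_leaves' wls 31671 wu1376 wl2.W (by simp [wls]) i hi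
theorem wfix3 : ∀ i, i < 31671 → pwalk Fi23a.pt wl3.W i = i := fun i hi => fix_of_leaves' wls 31671 wu1376 wl3.W (by simp [wls]) i hi

end Cfsg.Agent.Lib.Helper35.Fi23Tr.X
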